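import Mathlib

/-!
# Actions of a finite group: fixed points, congruences, and Jordan's criterion
-/

set_option autoImplicit false

namespace Cfsg.Agent.Lib.Compute.TitsTT

open MulAction SubMulAction

section Gen

variable {G Ω : Type*} [Group G] [MulAction G Ω]

/-- The number of fixed points of an element. -/
noncomputable def fx (Ω : Type*) [MulAction G Ω] (x : G) : ℕ := Nat.card (fixedBy Ω x)

theorem fx_conj (t x : G) : fx Ω (t * x * t⁻¹) = fx Ω x := by
  symm
  refine Nat.card_congr ?_
  refine Equiv.subtypeEquiv (MulAction.toPerm t) ?_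
  intro ω
  simp only [mem_fixedBy, toPerm_apply]
  constructor
  · intro h
    rw [← mul_smul, mul_assoc, mul_assoc, inv_mul_cancel, mul_one, mul_smul, h]
  · intro h
    rw [← mul_smul, mul_assoc, mul_assoc, inv_mul_cancel, mul_one, mul_smul] at h
    exact smul_left_cancel t h

/-- The size of an orbit of a finite group, through the stabilizer: divisibility of the number of points. -/
theorem dvd_card_of_index {H X : Type*} [Group H] [Finite H] [MulAction H X] [Finite X] {d : ℕ}
    (h : ∀ x : X, d ∣ (stabilizer H x).index) : d ∣ Nat.card X := by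
  classical
  have := Fintype.ofFinite X
  have := Fintype.ofFinite (orbitRel.Quotient H X)
  rw [Nat.card_congr (selfEquivSigmaOrbits H X), Nat.card_sigma]
  refine Finset.dvd_sum ?_
  intro q _
  have h1 := h q.out
  rw [index_stabilizer] at h1
  have e : (orbit H q.out).ncard = Nat.card (orbit H q.out) := rfl
  rw [e] at h1
  exact h1

/-- Embeddings are counted by the order of the group. -/
theorem embed_dvd [Finite G] [Fintype Ω] (k : ℕ) (hk : k ≤ Fintype.card Ω)
    (h : IsMultiplyPretransitive G Ω k) : (Fintype.card Ω).descFactorial k ∣ Nat.card G := by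
  classical
  have hne : Nonempty (Fin k ↪ Ω) := by
    apply Function.Embedding.nonempty_of_card_le
    simpa using hk
  obtain ⟨e⟩ := hne
  have h1 := Subgroup.card_mul_index (stabilizer G e)
  rw [index_stabilizer, orbit_eq_univ G e, Set.ncard_univ, Nat.card_eq_fintype_card (α := Fin k ↪ Ω),
    Fintype.card_embedding_eq] at h1
  rw [← h1]
  simp

/-- Points and their stabilizers in a transitive action. -/
theorem card_stab_mul [Finite G] [Fintype Ω] [IsPretransitive G Ω] (ω : Ω) :
    Fintype.card Ω * Nat.card (stabilizer G ω) = Nat.card G := by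
  have h1 := Subgroup.card_mul_index (stabilizer G ω)
  rw [index_stabilizer, orbit_eq_univ G ω, Set.ncard_univ] at h1
  rw [← h1, mul_comm, Nat.card_eq_fintype_card (α := Ω)]

end Gen

section Jordan

variable {G Ω : Type*} [Group G] [MulAction G Ω]

/-- Powers of an element of prime order: a point moved by the element is moved by its nontrivial powers. -/
theorem zpow_fix {g : G} {p : ℕ} (hp : p.Prime) (hg : g ^ p = 1) {ω : Ω} {k : ℤ} (hk : ¬ (p : ℤ) ∣ k)
    (h : g ^ k • ω = ω) : g • ω = ω := by
  have hc : IsCoprime k (p : ℤ) := by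
    have := (Nat.prime_iff_prime_int.mp hp).coprime_iff_not_dvd.mpr hk
    exact this.symm
  obtain ⟨a, b, hab⟩ := hc
  have e : g = (g ^ k) ^ a := by
    have h1 : g ^ (a * k + b * (p : ℤ)) = g := by rw [hab, zpow_one]
    have h2 : (g ^ (p : ℤ)) = 1 := by simpa using hg
    rw [zpow_add, mul_comm b, zpow_mul g (p : ℤ) b, h2, one_zpow, mul_one, mul_comm a, zpow_mul] at h1
    exact h1.symm
  have h3 : ∀ m : ℤ, (g ^ k) ^ m • ω = ω := by
    intro m
    have hs : g ^ k ∈ stabilizer G ω := h
    exact zpow_mem hs m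
  rw [e]
  exact h3 a

variable [Finite G] [Fintype Ω]

/-- The congruence for an element of prime order. -/
theorem fx_modEq {p : ℕ} (hp : p.Prime) {g : G} (hg : g ^ p = 1) :
    Fintype.card Ω ≡ fx Ω g [MOD p] := by
  have := Fact.mk hp
  have hP : IsPGroup p (Subgroup.zpowers g) := by
    have h1 : orderOf g ∣ p := orderOf_dvd_of_pow_eq_one hg
    rcases (Nat.dvd_prime hp).1 h1 with h2 | h2
    · exact IsPGroup.of_card (n := 0) (by rw [Nat.card_zpowers, h2, pow_zero])
    · exact IsPGroup.of_card (n := 1) (by rw [Nat.card_zpowers, h2, pow_one])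
  have h1 := hP.card_modEq_card_fixedPoints Ω
  have h2 : Nat.card (fixedPoints (Subgroup.zpowers g) Ω) = fx Ω g := by
    refine Nat.card_congr (Equiv.setCongr ?_)
    ext ω
    constructor
    · intro h
      exact h ⟨g, Subgroup.mem_zpowers g⟩
    · rintro h ⟨x, k, rfl⟩
      have hs : g ∈ stabilizer G ω := h
      exact zpow_mem hs k
  rw [h2, Nat.card_eq_fintype_card] at h1
  exact h1

/-- Jordan's criterion for an element of order 13 with a single cycle. -/
theorem jordan13 (h2 : IsMultiplyPretransitive G Ω 2) {g : G} (hg : g ^ 13 = 1) {f : ℕ}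
    (hf : fx Ω g = f + 1) (hn : Fintype.card Ω = f + 1 + 13) :
    (Fintype.card Ω).descFactorial (f + 2) ∣ Nat.card G := by
  classical
  have hprim : IsPreprimitive G Ω := isPreprimitive_of_is_two_pretransitive h2
  set s : Set Ω := fixedBy Ω g with hs
  have hsn : s.ncard = f + 1 := by
    rw [← hf, fx, Nat.card_coe_set_eq]
  have hcomp : Nat.card (ofFixingSubgroup G s) = 13 := by
    have h1 : Nat.card (ofFixingSubgroup G s) = sᶜ.ncard := by
      rw [← Nat.card_coe_set_eq]
      rfl
    rw [h1]
    have h2 := Set.ncard_add_ncard_compl s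
    rw [hsn, Nat.card_eq_fintype_card, hn] at h2
    omega
  have hgm : g ∈ fixingSubgroup G s := by
    rw [mem_fixingSubgroup_iff]
    intro y hy
    exact hy
  have hp13 : Nat.Prime 13 := by norm_num
  have hpt : IsPretransitive (fixingSubgroup G s) (ofFixingSubgroup G s) := by
    refine ⟨fun x y => ?_⟩
    let g' : fixingSubgroup G s := ⟨g, hgm⟩
    let F : Fin 13 → ofFixingSubgroup G s := fun i => g' ^ (i : ℕ) • x
    have hx : g • (x : Ω) ≠ x := by
      have := x.2
      rw [mem_ofFixingSubgroup_iff] at this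
      exact this
    have hFi : Function.Injective F := by
      intro i j hij
      by_contra hne
      have h1 : g ^ (i : ℕ) • (x : Ω) = g ^ (j : ℕ) • (x : Ω) := congrArg Subtype.val hij
      have h3 : g ^ (-(j : ℤ) + (i : ℤ)) • (x : Ω) = x := by
        rw [zpow_add, mul_smul]
        simp only [zpow_neg, zpow_natCast]
        rw [h1, inv_smul_smul]
      refine hx (zpow_fix hp13 hg ?_ h3)
      have hi := i.2
      have hj := j.2
      have hne' : (i : ℕ) ≠ j := fun h => hne (Fin.ext h)
      push_cast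
      omega
    have hFb : Function.Bijective F :=
      hFi.bijective_of_nat_card_le (by rw [hcomp, Nat.card_fin])
    obtain ⟨i, hi⟩ := hFb.2 y
    exact ⟨g' ^ (i : ℕ), hi⟩
  have hP : IsPreprimitive (fixingSubgroup G s) (ofFixingSubgroup G s) :=
    IsPreprimitive.of_prime_card (by rw [hcomp]; exact hp13)
  have hM := hprim.isMultiplyPreprimitive (n := f) hsn (by rw [Nat.card_eq_fintype_card, hn]; omega) hP
  refine embed_dvd (f + 2) (by rw [hn]; omega) (IsMultiplyPreprimitive.isMultiplyPretransitive G Ω (f + 2))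

/-- Elements of order three normalizing an element of order 13 without fixed points. -/
theorem card_fix_le {g y : G} (hg : g ^ 13 = 1) (hy : y * g * y⁻¹ = g ^ 3) (hf : fx Ω g = 0) :
    13 * fx Ω y ≤ Fintype.card Ω := by
  classical
  have hp13 : Nat.Prime 13 := by norm_num
  have hfree : ∀ ω : Ω, g • ω ≠ ω := by
    intro ω hω
    have h1 : Nat.card (fixedBy Ω g) = 0 := hf
    have h2 : IsEmpty (fixedBy Ω g) := by
      rw [Nat.card_eq_zero] at h1
      rcases h1 with h1 | h1
      · exact h1
      · exact absurd (Finite.of_fintype _) (not_finite_iff_infinite.mpr h1)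
    exact h2.false ⟨ω, hω⟩
  let F : Fin 13 × fixedBy Ω y → Ω := fun p => g ^ (p.1 : ℕ) • (p.2 : Ω)
  have hconj : ∀ k : ℤ, y * g ^ k * y⁻¹ = g ^ (3 * k) := by
    intro k
    have : y * g ^ k * y⁻¹ = (y * g * y⁻¹) ^ k := by
      rw [conj_zpow]
    rw [this, hy, zpow_mul]
    simp
  have hF : Function.Injective F := by
    rintro ⟨i, ω⟩ ⟨j, ω'⟩ hij
    have h1 : g ^ (i : ℕ) • (ω : Ω) = g ^ (j : ℕ) • (ω' : Ω) := hij
    have hyω : y • (ω : Ω) = ω := ω.2
    have hyω' : y • (ω' : Ω) = ω' := ω'.2
    have h3 : g ^ (-(j : ℤ) + (i : ℤ)) • (ω : Ω) = ω' := by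
      rw [zpow_add, mul_smul]
      simp only [zpow_neg, zpow_natCast]
      rw [h1, inv_smul_smul]
    set k : ℤ := -(j : ℤ) + (i : ℤ) with hk
    have h4 : g ^ (3 * k) • (ω : Ω) = g ^ k • (ω : Ω) := by
      have h5 : y • (g ^ k • (ω : Ω)) = g ^ k • (ω : Ω) := by rw [h3, hyω']
      have h6 : y • (g ^ k • (ω : Ω)) = (y * g ^ k * y⁻¹) • (y • (ω : Ω)) := by
        rw [mul_smul, mul_smul, inv_smul_smul]
      rw [h6, hconj, hyω] at h5
      exact h5
    have h7 : g ^ (-k + 3 * k) • (ω : Ω) = ω := by
      rw [zpow_add, mul_smul, h4, ← mul_smul, ← zpow_add]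
      simp
    have hdvd : (13 : ℤ) ∣ k := by
      by_contra hnd
      refine hfree ω (zpow_fix hp13 hg (k := -k + 3 * k) ?_ h7)
      push_cast at *
      omega
    have hi := i.2
    have hj := j.2
    have hk0 : k = 0 := by omega
    have hij' : (i : ℕ) = j := by omega
    have hijF : i = j := Fin.ext hij'
    subst hijF
    have : ω = ω' := by
      apply Subtype.ext
      rw [hk0] at h3
      simpa using h3
    rw [this]
  have h1 := Nat.card_le_card_of_injective F hF
  rw [Nat.card_prod, Nat.card_fin, Nat.card_eq_fintype_card (α := Ω)] at h1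
  exact h1

/-- The unique fixed point of an element of order 13 is fixed by elements normalizing it. -/
theorem fix_of_unique {g y : G} (hg : g ^ 13 = 1) (hy : y * g * y⁻¹ = g ^ 3) (hf : fx Ω g = 1) :
    ∃ α : Ω, y • α = α := by
  classical
  have h1 : Nat.card (fixedBy Ω g) = 1 := hf
  rw [Nat.card_eq_one_iff_unique] at h1
  obtain ⟨hsub, ⟨α⟩⟩ := h1
  refine ⟨α, ?_⟩
  have e : y * g ^ 9 * y⁻¹ = g := by
    have : y * g ^ 9 * y⁻¹ = (y * g * y⁻¹) ^ 9 := by
      rw [conj_pow]
    rw [this, hy, ← pow_mul]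
    have : g ^ (3 * 9) = (g ^ 13) ^ 2 * g := by
      rw [← pow_mul, ← pow_succ]
    rw [this, hg]
    simp
  have hαf : g • (α : Ω) = α := α.2
  have h9 : ∀ k : ℕ, g ^ k • (α : Ω) = α := by
    intro k
    have hs : g ∈ stabilizer G (α : Ω) := hαf
    exact pow_mem hs k
  have h2 : (y * g ^ 9 * y⁻¹) • (y • (α : Ω)) = y • (α : Ω) := by
    rw [mul_smul, mul_smul, inv_smul_smul, h9 9]
  rw [e] at h2
  have h3 : (⟨y • (α : Ω), h2⟩ : fixedBy Ω g) = α := Subsingleton.elim _ _
  exact congrArg Subtype.val h3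

/-- A `p`-subgroup with a central commutator: the points moved by the commutator come in nines. -/
theorem nine_dvd (Q : Subgroup G) (hQ : IsPGroup 3 Q) {a b z : G} (ha : a ∈ Q) (hb : b ∈ Q)
    (hz : z = a * b * a⁻¹ * b⁻¹) (hc : ∀ x ∈ Q, x * z = z * x) :
    ∃ m, Fintype.card Ω = fx Ω z + 9 * m := by
  classical
  have hzQ : z ∈ Q := by
    rw [hz]
    exact Q.mul_mem (Q.mul_mem (Q.mul_mem ha hb) (Q.inv_mem ha)) (Q.inv_mem hb)
  have hp3 : Nat.Prime 3 := by norm_num
  let X : SubMulAction Q Ω :=
    { carrier := {ω | z • ω ≠ ω}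
      smul_mem' := by
        rintro ⟨x, hx⟩ ω hω h
        apply hω
        have e : x * z = z * x := hc x hx
        have h1 : (x * z) • ω = x • ω := by
          rw [e, mul_smul]
          exact h
        rw [mul_smul] at h1
        exact smul_left_cancel x h1 }
  have h9 : 9 ∣ Nat.card X := by
    refine dvd_card_of_index (H := Q) ?_
    intro x
    have hx : z • (x : Ω) ≠ x := x.2
    set S : Subgroup Q := stabilizer Q x with hS
    have hzS : (⟨z, hzQ⟩ : Q) ∉ S := by
      intro h
      apply hx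
      have h1 : (⟨z, hzQ⟩ : Q) • x = x := h
      exact congrArg Subtype.val h1
    obtain ⟨k, hk⟩ := hQ.index S
    rw [hk]
    have hk2 : 2 ≤ k := by
      by_contra hlt
      have hk' : k = 0 ∨ k = 1 := by omega
      rcases hk' with rfl | rfl
      · rw [pow_zero, Subgroup.index_eq_one] at hk
        exact hzS (by rw [hk]; trivial)
      · rw [pow_one] at hk
        obtain ⟨m, hm⟩ := IsPGroup.iff_card.mp hQ
        have hm0 : m ≠ 0 := by
          rintro rfl
          have h1 := S.index_dvd_card
          rw [hk, hm] at h1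
          norm_num at h1
        have hmf : (Nat.card Q).minFac = 3 := by
          rw [hm, Nat.Prime.pow_minFac hp3 hm0]
        have hN : S.Normal := Subgroup.normal_of_index_eq_minFac_card (by rw [hk, hmf])
        have hcardq : Nat.card (Q ⧸ S) = 3 := by
          rw [← hk]
          rfl
        haveI : Fact (Nat.Prime (Nat.card (Q ⧸ S))) := ⟨by rw [hcardq]; exact hp3⟩
        have hcyc : IsCyclic (Q ⧸ S) := isCyclic_of_prime_card rfl
        apply hzS
        have hcomm : ((⟨a, ha⟩ : Q) : Q ⧸ S) * ((⟨b, hb⟩ : Q) : Q ⧸ S) =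
            ((⟨b, hb⟩ : Q) : Q ⧸ S) * ((⟨a, ha⟩ : Q) : Q ⧸ S) := by
          exact (IsCyclic.isMulCommutative (α := Q ⧸ S)).is_comm.comm _ _
        have h1 : (⟨z, hzQ⟩ : Q) = (⟨a, ha⟩ : Q) * ⟨b, hb⟩ * (⟨a, ha⟩ : Q)⁻¹ * (⟨b, hb⟩ : Q)⁻¹ :=
          Subtype.ext hz
        rw [h1]
        rw [← QuotientGroup.eq_one_iff]
        simp only [QuotientGroup.mk_mul, QuotientGroup.mk_inv]
        rw [hcomm]
        group
    obtain ⟨l, rfl⟩ := Nat.exists_eq_add_of_le hk2
    rw [pow_add]
    exact Dvd.intro _ rfl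
  obtain ⟨m, hm⟩ := h9
  refine ⟨m, ?_⟩
  have h1 : Nat.card X = Nat.card {ω : Ω // z • ω ≠ ω} := rfl
  have h2 : fx Ω z = Nat.card {ω : Ω // z • ω = ω} := rfl
  rw [← hm, h1, h2, Nat.card_eq_fintype_card, Nat.card_eq_fintype_card]
  have := Fintype.card_subtype_compl (fun ω : Ω => z • ω = ω)
  have h3 := Fintype.card_subtype_le (fun ω : Ω => z • ω = ω)
  rw [this]
  omega

end Jordan

end Cfsg.Agent.Lib.Compute.TitsTT
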