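import Cfsg.Agent.Lib.Compute.TitsTT.Abs

/-!
# No 2-transitive action, from the data of a few elements
-/

set_option autoImplicit false

namespace Cfsg.Agent.Lib.Compute.TitsTT

open MulAction SubMulAction

/-- The group of order 25. -/
abbrev HH : Type := Multiplicative (ZMod 5 × ZMod 5)

/-- Six lines of the plane. -/
def pr (m : Fin 6) : ℕ × ℕ := List.getD [(1, 0), (0, 1), (1, 1), (1, 2), (1, 3), (1, 4)] m (0, 0)

/-- Representatives of the six lines. -/
def YY (m : Fin 6) : HH := Multiplicative.ofAdd (((pr m).1 : ZMod 5), ((pr m).2 : ZMod 5))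

theorem yy_c1 : ∀ x : HH, x ≠ 1 → ∃ k : Fin 5, ∃ m : Fin 6, x ^ (k : ℕ) = YY m := by decide +kernel

theorem yy_c2 : ∀ m l : Fin 6, m ≠ l → ∀ x : HH, ∃ p q : Fin 5, x = YY m ^ (p : ℕ) * YY l ^ (q : ℕ) := by
  decide +kernel

theorem card_HH : Nat.card HH = 25 := by
  rw [Nat.card_eq_fintype_card]
  rfl

section Five

variable {G Ω : Type*} [Group G] [MulAction G Ω]

theorem pow_val_add {w : G} (h : w ^ 5 = 1) (a b : ZMod 5) : w ^ ((a + b).val) = w ^ a.val * w ^ b.val := by
  rw [← pow_add, ZMod.val_add]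
  conv_rhs => rw [← Nat.div_add_mod (a.val + b.val) 5, pow_add, pow_mul, h, one_pow, one_mul]

/-- The homomorphism from the group of order 25. -/
def psi {u v : G} (huv : u * v = v * u) (hu : u ^ 5 = 1) (hv : v ^ 5 = 1) : HH →* G where
  toFun x := u ^ ((Multiplicative.toAdd x).1.val) * v ^ ((Multiplicative.toAdd x).2.val)
  map_one' := by simp
  map_mul' x y := by
    have hc : Commute u v := huv
    simp only [toAdd_mul, Prod.fst_add, Prod.snd_add]
    rw [pow_val_add hu, pow_val_add hv]
    have h1 := (hc.pow_pow (Multiplicative.toAdd y).1.val (Multiplicative.toAdd x).2.val).eq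
    calc _ = u ^ (Multiplicative.toAdd x).1.val * (u ^ (Multiplicative.toAdd y).1.val * v ^ (Multiplicative.toAdd x).2.val) * v ^ (Multiplicative.toAdd y).2.val := by group
      _ = _ := by rw [h1]; group

variable [Finite G] [Fintype Ω]

theorem five_part {u v : G} (huv : u * v = v * u) (hu : u ^ 5 = 1) (hv : v ^ 5 = 1) (hu1 : u ≠ 1)
    (hc : ∀ m : Fin 6, ∃ t, t * u * t⁻¹ = u ^ (pr m).1 * v ^ (pr m).2)
    (hS : ∀ ω : Ω, ¬ 25 ∣ Nat.card (stabilizer G ω))
    (hn : Fintype.card Ω = 40 ∨ Fintype.card Ω = 65) : False := by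
  classical
  let ψ : HH →* G := psi huv hu hv
  have hψY : ∀ m, ψ (YY m) = u ^ (pr m).1 * v ^ (pr m).2 := by
    intro m
    fin_cases m <;> rfl
  have hne : ∀ m, ψ (YY m) ≠ 1 := by
    intro m h1
    obtain ⟨t, ht⟩ := hc m
    rw [← hψY, h1] at ht
    apply hu1
    have : u = t⁻¹ * (t * u * t⁻¹) * t := by group
    rw [this, ht]
    group
  have hinj : Function.Injective ψ := by
    rw [injective_iff_map_eq_one]
    intro x hx
    by_contra hx1
    obtain ⟨k, m, hkm⟩ := yy_c1 x hx1
    apply hne m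
    rw [← hkm, map_pow, hx, one_pow]
  have hnofix : ∀ ω : Ω, ∃ x : HH, ψ x • ω ≠ ω := by
    intro ω
    by_contra hall
    push Not at hall
    have hle : ψ.range ≤ stabilizer G ω := by
      rintro _ ⟨x, rfl⟩
      exact hall x
    have h1 : Nat.card ψ.range = 25 := by
      rw [← card_HH]
      exact (Nat.card_congr (MonoidHom.ofInjective hinj).toEquiv).symm
    have h2 := Subgroup.card_dvd_of_le hle
    rw [h1] at h2
    exact hS ω h2
  let F : Fin 6 → Finset Ω := fun m => Finset.univ.filter (fun ω => ψ (YY m) • ω = ω)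
  have hFc : ∀ m, (F m).card = fx Ω u := by
    intro m
    obtain ⟨t, ht⟩ := hc m
    rw [← fx_conj (Ω := Ω) t u, ht, ← hψY]
    symm
    exact Nat.subtype_card (F m) (fun ω => by simp [F, mem_fixedBy])
  have hdisj : ∀ m l, m ≠ l → Disjoint (F m) (F l) := by
    intro m l hml
    rw [Finset.disjoint_left]
    intro ω h1 h2
    have h1' : ψ (YY m) ∈ stabilizer G ω := (Finset.mem_filter.mp h1).2
    have h2' : ψ (YY l) ∈ stabilizer G ω := (Finset.mem_filter.mp h2).2
    obtain ⟨x, hx⟩ := hnofix ω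
    apply hx
    obtain ⟨p, q, hpq⟩ := yy_c2 m l hml x
    rw [hpq, map_mul, map_pow, map_pow]
    exact (stabilizer G ω).mul_mem ((stabilizer G ω).pow_mem h1' _) ((stabilizer G ω).pow_mem h2' _)
  let U : Finset Ω := Finset.univ.biUnion F
  have hU : U.card = 6 * fx Ω u := by
    rw [Finset.card_biUnion (fun m _ l _ hml => hdisj m l hml)]
    simp [hFc]
  let _ : MulAction HH Ω := MulAction.compHom Ω ψ
  have hsm : ∀ (x : HH) (ω : Ω), x • ω = ψ x • ω := fun _ _ => rfl
  let R : SubMulAction HH Ω :=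
    { carrier := {ω | ω ∉ U}
      smul_mem' := by
        intro x ω hω h
        apply hω
        rw [Finset.mem_biUnion] at h ⊢
        obtain ⟨m, _, hm⟩ := h
        refine ⟨m, Finset.mem_univ _, ?_⟩
        have hm' := (Finset.mem_filter.mp hm).2
        rw [Finset.mem_filter]
        refine ⟨Finset.mem_univ _, ?_⟩
        rw [hsm, ← mul_smul, ← map_mul, mul_comm, map_mul, mul_smul] at hm'
        exact smul_left_cancel _ hm' }
  have h25 : 25 ∣ Nat.card R := by
    refine dvd_card_of_index (H := HH) ?_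
    intro r
    have hbot : stabilizer HH r = ⊥ := by
      rw [eq_bot_iff]
      intro x hx
      rw [Subgroup.mem_bot]
      by_contra hx1
      obtain ⟨k, m, hkm⟩ := yy_c1 x hx1
      have h1 : x • (r : Ω) = r := congrArg Subtype.val (show x • r = r from hx)
      have h2 : ψ x ∈ stabilizer G (r : Ω) := h1
      have h3 : ψ (YY m) ∈ stabilizer G (r : Ω) := by
        rw [← hkm, map_pow]
        exact (stabilizer G (r : Ω)).pow_mem h2 _
      apply r.2
      rw [Finset.mem_biUnion]
      exact ⟨m, Finset.mem_univ _, Finset.mem_filter.mpr ⟨Finset.mem_univ _, h3⟩⟩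
    rw [hbot, Subgroup.index_bot, card_HH]
  have hRc : Nat.card R = Fintype.card Ω - U.card := by
    have h1 : Nat.card R = Nat.card {ω : Ω // ω ∉ U} := rfl
    rw [h1, Nat.subtype_card (Uᶜ) (fun ω => by simp), Finset.card_compl]
  have hUle : U.card ≤ Fintype.card Ω := Finset.card_le_univ U
  rw [hRc] at h25
  rcases hn with hn | hn <;> rw [hn] at h25 hUle <;> rw [hU] at h25 hUle <;> omega

end Five

section Main

variable {G Ω : Type*} [Group G] [MulAction G Ω] [Finite G] [Fintype Ω] [FaithfulSMul G Ω]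

theorem candidates (n : ℕ) (h1 : n < 4300) (h2 : 3 ≤ n) (h3 : n * (n - 1) ∣ 17971200) :
    n = 3 ∨ n = 4 ∨ n = 5 ∨ n = 6 ∨ n = 9 ∨ n = 10 ∨ n = 13 ∨ n = 16 ∨ n = 25 ∨ n = 26 ∨ n = 27 ∨ n = 40 ∨ n = 65 := by
  have key : (List.range 4300).all (fun n => !(Nat.ble 3 n) || (Nat.blt 0 (17971200 % (n * (n - 1)))) ||
      [3, 4, 5, 6, 9, 10, 13, 16, 25, 26, 27, 40, 65].contains n) = true := by decide +kernel
  rw [List.all_eq_true] at key
  have h4 := key n (List.mem_range.mpr h1)
  have h5 : Nat.ble 3 n = true := Nat.ble_eq.mpr h2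
  have h6 : 17971200 % (n * (n - 1)) = 0 := Nat.mod_eq_zero_of_dvd h3
  rw [h5, h6] at h4
  simp only [Bool.not_true, Bool.false_or] at h4
  have h7 : Nat.blt 0 0 = false := rfl
  rw [h7] at h4
  simpa using h4

theorem fx_le (x : G) : fx Ω x ≤ Fintype.card Ω := by
  classical
  rw [fx, Nat.card_eq_fintype_card]
  exact Fintype.card_subtype_le _

theorem fx_ne {x : G} (hx : x ≠ 1) : fx Ω x ≠ Fintype.card Ω := by
  classical
  intro h
  apply hx
  have h1 : fixedBy Ω x = Set.univ := by
    rw [Set.eq_univ_iff_ncard, Nat.card_eq_fintype_card, ← h, fx, Nat.card_coe_set_eq]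
  have h2 : ∀ ω : Ω, x • ω = ω := fun ω => by
    have : ω ∈ fixedBy Ω x := by rw [h1]; trivial
    exact this
  exact eq_of_smul_eq_smul (fun ω => by rw [h2, one_smul])

/-- A group of the order of the Tits group, with the following elements, has no 2-transitive faithful action on three points or more. -/
theorem main_abs (hcard : Nat.card G = 17971200) (h3 : 3 ≤ Fintype.card Ω)
    (h2 : IsMultiplyPretransitive G Ω 2)
    {g y z t a b u v : G} (hg13 : g ^ 13 = 1) (hg1 : g ≠ 1) (hy : y * g * y⁻¹ = g ^ 3)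
    (hy3 : y ^ 3 = 1) (hy1 : y ≠ 1) (hzy : t * z * t⁻¹ = y)
    (Q : Subgroup G) (hQ : IsPGroup 3 Q) (ha : a ∈ Q) (hb : b ∈ Q) (hz : z = a * b * a⁻¹ * b⁻¹)
    (hcent : ∀ x ∈ Q, x * z = z * x)
    (huv : u * v = v * u) (hu : u ^ 5 = 1) (hv : v ^ 5 = 1) (hu1 : u ≠ 1)
    (hc : ∀ m : Fin 6, ∃ t, t * u * t⁻¹ = u ^ (pr m).1 * v ^ (pr m).2) : False := by
  classical
  set n := Fintype.card Ω with hn
  have htr : IsPretransitive G Ω := by
    have := h2
    exact isPretransitive_of_is_two_pretransitive (G := G) (α := Ω)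
  have hd := embed_dvd (G := G) (Ω := Ω) 2 (by omega) h2
  rw [hcard, Nat.descFactorial_succ, Nat.descFactorial_one] at hd
  have hd' : n * (n - 1) ∣ 17971200 := by
    have : (n - 1) * n = n * (n - 1) := mul_comm _ _
    rwa [this] at hd
  have hle : n < 4300 := by
    by_contra hge
    have h1 := Nat.le_of_dvd (by norm_num) hd'
    have h4 : 4300 * 4299 ≤ n * (n - 1) := Nat.mul_le_mul (by omega) (by omega)
    omega
  have hcand := candidates n hle h3 hd'
  have hmod := fx_modEq (Ω := Ω) (p := 13) (by norm_num) hg13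
  have hfle := fx_le (Ω := Ω) g
  have hfne := fx_ne (Ω := Ω) hg1
  have hmod' : n % 13 = fx Ω g % 13 := hmod
  have hst : ∀ ω : Ω, n * Nat.card (stabilizer G ω) = 17971200 := fun ω => by
    rw [← hcard]
    exact card_stab_mul ω
  -- the case of a fixed-point-free element of order 13
  have caseA : fx Ω g = 0 → n = 13 ∨ n = 26 → False := by
    intro hf0 hn13
    have h13 := card_fix_le (Ω := Ω) hg13 hy hf0
    obtain ⟨m, hm⟩ := nine_dvd (Ω := Ω) Q hQ ha hb hz hcent
    have hfz : fx Ω z = fx Ω y := by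
      rw [← hzy, fx_conj]
    rw [hfz] at hm
    omega
  -- the case of a single cycle of length 13
  have caseB : ∀ f, fx Ω g = f + 1 → n = f + 1 + 13 → ¬ n.descFactorial (f + 2) ∣ 17971200 → False := by
    intro f hf hnf hnd
    have h := jordan13 (Ω := Ω) h2 hg13 hf hnf
    rw [hcard] at h
    exact hnd h
  -- the case of a unique fixed point
  have caseC : fx Ω g = 1 → n = 27 → False := by
    intro hf1 hn27
    obtain ⟨α, hα⟩ := fix_of_unique (Ω := Ω) hg13 hy hf1
    have hmem : y ∈ stabilizer G α := hα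
    have ho : orderOf y = 3 := orderOf_eq_prime hy3 hy1
    have hd3 : 3 ∣ Nat.card (stabilizer G α) := by
      rw [← ho]
      exact Subgroup.orderOf_dvd_natCard _ hmem
    have h4 := hst α
    rw [hn27] at h4
    omega
  have hmid : ∀ (ω : Ω), (n = 40 ∨ n = 65) → ¬ 25 ∣ Nat.card (stabilizer G ω) := by
    intro ω hn2 hdvd
    have h4 := hst ω
    rcases hn2 with h5 | h5 <;> rw [h5] at h4 <;> omega
  have caseD : n = 40 ∨ n = 65 → False := fun hn2 =>
    five_part huv hu hv hu1 hc (fun ω => hmid ω hn2) hn2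
  rcases hcand with h | h | h | h | h | h | h | h | h | h | h | h | h
  · omega
  · omega
  · omega
  · omega
  · omega
  · omega
  · exact caseA (by omega) (Or.inl h)
  · refine caseB 2 (by omega) (by omega) ?_
    rw [h]
    decide +kernel
  · refine caseB 11 (by omega) (by omega) ?_
    rw [h]
    decide +kernel
  · by_cases h0 : fx Ω g = 0
    · exact caseA h0 (Or.inr h)
    · refine caseB 12 (by omega) (by omega) ?_
      rw [h]
      decide +kernel
  · by_cases h0 : fx Ω g = 1
    · exact caseC h0 h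
    · refine caseB 13 (by omega) (by omega) ?_
      rw [h]
      decide +kernel
  · exact caseD (Or.inl h)
  · exact caseD (Or.inr h)

end Main

end Cfsg.Agent.Lib.Compute.TitsTT
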