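import Mathlib

/-!
# Words in the generators of the Tits group
-/

set_option autoImplicit false

namespace Cfsg.Agent.Lib.Compute.TitsTT

/-- An element of order 13. -/
def gw : List ℕ := [0,0,2]

/-- An element of order 3 normalizing it. -/
def yw : List ℕ := [2,0,2,1,3]

/-- A central element of a Sylow 3-subgroup. -/
def zw : List ℕ := [0,2,0,2]

/-- A conjugating element. -/
def tw : List ℕ := [1,4,3,0,2,0,2,4,2,4,2,4,2]

/-- Generators of a Sylow 3-subgroup. -/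
def au : List ℕ := [1,1,1,2]

/-- Generators of a Sylow 3-subgroup. -/
def bu : List ℕ := [1,2,0,0,2,1,1]

/-- The elements of a Sylow 3-subgroup. -/
def QW : List (List ℕ) := [[],[1,1,1,2],[1,2,0,0,2,1,1],[3,0,0,0],[1,1,3,1,1,3,0,0,2],[1,1,3,1,1,3,0,3,1],[0,0,3,1,1,3,0],[3,0,3,1,2,0,3,1,3],[3,0,3,1,1,2,1,3,0,0],[0,0,0,2,0,0,2,1,2],[3,0,0,2,0,0,2,1,1],[1,1,2,0,3,0,0,2,1,2],[2,0,2,1,3,0,2,1,2],[1,2,0,0,3,0,2,0],[0,2,1,1,3,1,1,3,0],[1,2,0,0,2,1,2,0,2],[3,1,1,1,3,1,1,3,0],[2,1,3,0,2,1,3,0],[0,0,0,0,3,1],[0,0,0,3,1,3,1,2],[1,2,0,3,1,2,0,3],[3,1,1,2,0,0,2,1,2],[1,3,1,2,1,1,3,0],[0,2,1,1,1,2,0,2],[0,2,0,0,0,0],[3,1,3,1],[0,2,0,2]]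

/-- The multiplication by the first generator. -/
def QA : List ℕ := [1,3,5,0,8,10,12,13,15,17,2,14,16,20,22,4,6,21,23,24,7,9,11,25,26,18,19]

/-- The multiplication by the second generator. -/
def QB : List ℕ := [2,4,6,7,9,11,0,14,16,1,17,18,19,21,3,22,23,24,5,20,12,25,26,8,10,13,15]

/-- An element of order 5. -/
def uw : List ℕ := [0,4,3,0,4,2]

/-- A commuting element of order 5. -/
def vw : List ℕ := [1,1,3,0,4,2,1,4]

/-- The conjugating elements. -/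
def TS : List (List ℕ) := [[],[1,1],[1,3,4,2,4,2,4,3,0,0,0,2,1],[0,3,1,1,1,2,4,3,0,3,4,2,1],[0,3,1,1,1,2,4,3,4,3,4,2,1],[2,1,1,2,4,3,0,0,2,1,3,1]]

/-- A bit of the check of nontriviality. -/
def gbit : ℕ × ℕ := (0, 1)

/-- A bit of the check of nontriviality. -/
def ubit : ℕ × ℕ := (0, 7)

end Cfsg.Agent.Lib.Compute.TitsTT
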