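import Mathlib
import Cfsg.Agent.Lib.Compute.TitsTT.Abs2
import Cfsg.Agent.Lib.Compute.TitsTT.Data
import Cfsg.Agent.S2115

/-!
# The Tits group has no faithful 2-transitive action
-/

set_option autoImplicit false
set_option maxRecDepth 1000000

namespace Cfsg.Agent.Lib.Compute.TitsTT

open Cfsg Cfsg.Lie Cfsg.Agent.Lib.ChevBN.Elem Cfsg.Agent.Lib.Invol.Walk Cfsg.Agent.Lib.Invol.BitRank
open Cfsg.Agent.Lib.Compute.ToddCoxeterCore (wordEl wordEl_nil wordEl_cons wordEl_append)
open Cfsg.Agent.Lib.Compute.SchurLin Cfsg.Agent.Lib.Compute.Schur2 Cfsg.Agent.Lib.Compute.Schur2.BitGL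
open Cfsg.Agent.Lib.Compute.Schur2.TitsM
open Cfsg.Agent.Lib.Compute.PermCert (allB allB_iff)

/-- The Tits group. -/
abbrev TT : Type := Cfsg.Lie.TitsGroup

/-- The value of a word. -/
noncomputable def wT (u : List ℕ) : TT := wordEl (ltr S2115.gT) u

theorem wT_append (u v : List ℕ) : wT (u ++ v) = wT v * wT u := wordEl_append _ _ _

theorem wT_inv (u : List ℕ) : wT (invW u) = (wT u)⁻¹ := wordEl_inv_word _ _

theorem wT_pow (u : List ℕ) (k : ℕ) : wT (powW u k) = wT u ^ k := wordEl_powW _ _ _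

theorem wT_eq {u v : List ℕ} (h : eqB 52 CY CY 6 6 u v = true) : wT u = wT v := by
  apply Subtype.ext
  apply Subtype.ext
  rw [wT, wT, S2115.coe_wordT, S2115.coe_wordT]
  exact word_eq_word (D := chevF4) (L := 6) (L' := 6) (fun _ hx => hY hx) (fun _ hx => hY hx) h

theorem wT_one {u : List ℕ} (h : oneB 52 CY 6 u = true) : wT u = 1 := by
  apply Subtype.ext
  apply Subtype.ext
  rw [wT, S2115.coe_wordT]
  exact word_eq_one (D := chevF4) (L := 6) (fun _ hx => hY hx) h

theorem wT_ne {u : List ℕ} (hu : ltB 6 u = true) (m : ℕ) (c : chevF4.Idx)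
    (h : (m.testBit (pos chevF4 c) != (wAct CY u m).testBit (pos chevF4 c)) = true) : wT u ≠ 1 := by
  intro h1
  have h2 : wordEl (ltr y) u = 1 := by
    have h3 : ((wT u : S2115.G) : GL II K2) = 1 := by
      rw [h1]
      rfl
    rw [wT, S2115.coe_wordT] at h3
    exact h3
  have h4 := acts_word (D := chevF4) (F := K2) (L := 6) (fun _ hx => hY hx) (ltB_spec hu) m
  rw [h2] at h4
  simp only [Units.val_one, Matrix.one_mulVec] at h4
  have h5 := congrFun h4 c
  simp only [vec] at h5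
  revert h h5
  cases m.testBit (pos chevF4 c) <;> cases (wAct CY u m).testBit (pos chevF4 c) <;> simp

theorem inst_finite : Finite TT := by
  apply Nat.finite_of_card_ne_zero
  rw [S2115.hcardT]
  decide

theorem hcard : Nat.card TT = 17971200 := by
  rw [S2115.hcardT]
  rfl

theorem hg13 : wT gw ^ 13 = 1 := by
  rw [← wT_pow]
  exact wT_one (by decide +kernel)

theorem hg1 : wT gw ≠ 1 :=
  wT_ne (by decide +kernel) 1 (.inl ⟨1, by decide⟩) (by decide +kernel)

theorem hy : wT yw * wT gw * (wT yw)⁻¹ = wT gw ^ 3 := by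
  rw [← wT_pow, ← wT_inv, mul_assoc, ← wT_append, ← wT_append]
  exact wT_eq (by decide +kernel)

theorem hy3 : wT yw ^ 3 = 1 := by
  rw [← wT_pow]
  exact wT_one (by decide +kernel)

theorem hy1 : wT yw ≠ 1 := by
  intro h
  have h1 := hy
  rw [h] at h1
  simp only [one_mul, inv_one, mul_one] at h1
  -- g = g ^ 3, hence g ^ 2 = 1
  have h2 : wT gw ^ 2 = 1 := by
    have : wT gw * wT gw ^ 2 = wT gw * 1 := by
      rw [mul_one, ← pow_succ']
      exact h1.symm
    exact mul_left_cancel this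
  have h3 : wT gw = 1 := by
    have : wT gw ^ 13 = (wT gw ^ 2) ^ 6 * wT gw := by
      rw [← pow_mul, ← pow_succ]
    rw [hg13, h2] at this
    simpa using this.symm
  exact hg1 h3

theorem hzy : wT tw * wT zw * (wT tw)⁻¹ = wT yw := by
  rw [← wT_inv, mul_assoc, ← wT_append, ← wT_append]
  exact wT_eq (by decide +kernel)

/-- A Sylow 3-subgroup. -/
noncomputable def QQ : Subgroup TT := Subgroup.closure {wT au, wT bu}

theorem ha : wT au ∈ QQ := Subgroup.subset_closure (by simp)

theorem hb : wT bu ∈ QQ := Subgroup.subset_closure (by simp)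

theorem hz : wT zw = wT au * wT bu * (wT au)⁻¹ * (wT bu)⁻¹ := by
  have h : wT zw = wT (invW bu ++ (invW au ++ (bu ++ au))) := wT_eq (by decide +kernel)
  rw [h, wT_append, wT_append, wT_append, wT_inv, wT_inv]

theorem ha3 : wT au ^ 3 = 1 := by
  rw [← wT_pow]
  exact wT_one (by decide +kernel)

theorem hb3 : wT bu ^ 3 = 1 := by
  rw [← wT_pow]
  exact wT_one (by decide +kernel)

theorem qChk : allB (fun i => eqB 52 CY CY 6 6 (au ++ QW.getD i []) (QW.getD (QA.getD i 0) []) &&
    eqB 52 CY CY 6 6 (bu ++ QW.getD i []) (QW.getD (QB.getD i 0) []) &&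
    oneB 52 CY 6 (powW (QW.getD i []) 3) && Nat.blt (QA.getD i 0) 27 && Nat.blt (QB.getD i 0) 27) 27 = true := by
  decide +kernel

theorem q_mulA {i : ℕ} (hi : i < 27) : wT (QW.getD i []) * wT au = wT (QW.getD (QA.getD i 0) []) := by
  have h := (allB_iff _ _).1 qChk i hi
  simp only [Bool.and_eq_true] at h
  rw [← wT_append]
  exact wT_eq h.1.1.1.1

theorem q_mulB {i : ℕ} (hi : i < 27) : wT (QW.getD i []) * wT bu = wT (QW.getD (QB.getD i 0) []) := by
  have h := (allB_iff _ _).1 qChk i hi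
  simp only [Bool.and_eq_true] at h
  rw [← wT_append]
  exact wT_eq h.1.1.1.2

theorem q_ltA {i : ℕ} (hi : i < 27) : QA.getD i 0 < 27 := by
  have h := (allB_iff _ _).1 qChk i hi
  simp only [Bool.and_eq_true] at h
  exact Nat.le_of_ble_eq_true h.1.2

theorem q_ltB {i : ℕ} (hi : i < 27) : QB.getD i 0 < 27 := by
  have h := (allB_iff _ _).1 qChk i hi
  simp only [Bool.and_eq_true] at h
  exact Nat.le_of_ble_eq_true h.2

theorem q_cube {i : ℕ} (hi : i < 27) : wT (QW.getD i []) ^ 3 = 1 := by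
  have h := (allB_iff _ _).1 qChk i hi
  simp only [Bool.and_eq_true] at h
  rw [← wT_pow]
  exact wT_one h.1.1.2

theorem q_all (x : TT) (hx : x ∈ QQ) : ∃ i < 27, x = wT (QW.getD i []) := by
  have hstepA : ∀ x : TT, (∃ i < 27, x = wT (QW.getD i [])) → ∃ i < 27, x * wT au = wT (QW.getD i []) := by
    rintro _ ⟨i, hi, rfl⟩
    exact ⟨_, q_ltA hi, q_mulA hi⟩
  have hstepB : ∀ x : TT, (∃ i < 27, x = wT (QW.getD i [])) → ∃ i < 27, x * wT bu = wT (QW.getD i []) := by
    rintro _ ⟨i, hi, rfl⟩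
    exact ⟨_, q_ltB hi, q_mulB hi⟩
  refine Subgroup.closure_induction_right (p := fun x _ => ∃ i < 27, x = wT (QW.getD i [])) ?_ ?_ ?_ hx
  · exact ⟨0, by norm_num, rfl⟩
  · rintro x _ y hy h
    rcases hy with rfl | hy
    · exact hstepA x h
    · rw [Set.mem_singleton_iff] at hy
      subst hy
      exact hstepB x h
  · rintro x _ y hy h
    rcases hy with rfl | hy
    · have e : (wT au)⁻¹ = wT au * wT au := by
        rw [inv_eq_iff_mul_eq_one, ← pow_two, ← pow_succ']
        exact ha3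
      rw [e, ← mul_assoc]
      obtain ⟨j, hj, h1⟩ := hstepA x h
      exact hstepA _ ⟨j, hj, h1⟩
    · rw [Set.mem_singleton_iff] at hy
      subst hy
      have e : (wT bu)⁻¹ = wT bu * wT bu := by
        rw [inv_eq_iff_mul_eq_one, ← pow_two, ← pow_succ']
        exact hb3
      rw [e, ← mul_assoc]
      obtain ⟨j, hj, h1⟩ := hstepB x h
      exact hstepB _ ⟨j, hj, h1⟩

theorem hQ : IsPGroup 3 QQ := by
  rintro ⟨x, hx⟩
  obtain ⟨i, hi, rfl⟩ := q_all x hx
  refine ⟨1, ?_⟩
  apply Subtype.ext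
  simpa using q_cube hi

theorem hcent (x : TT) (hx : x ∈ QQ) : x * wT zw = wT zw * x := by
  have hle : QQ ≤ Subgroup.centralizer {wT zw} := by
    rw [QQ, Subgroup.closure_le]
    rintro w hw
    rw [SetLike.mem_coe, Subgroup.mem_centralizer_iff]
    rintro _ rfl
    rcases hw with rfl | hw
    · rw [← wT_append, ← wT_append]
      exact wT_eq (by decide +kernel)
    · rw [Set.mem_singleton_iff] at hw
      subst hw
      rw [← wT_append, ← wT_append]
      exact wT_eq (by decide +kernel)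
  have h := Subgroup.mem_centralizer_iff.mp (hle hx) (wT zw) rfl
  exact h.symm

theorem huv : wT uw * wT vw = wT vw * wT uw := by
  rw [← wT_append, ← wT_append]
  exact wT_eq (by decide +kernel)

theorem hu : wT uw ^ 5 = 1 := by
  rw [← wT_pow]
  exact wT_one (by decide +kernel)

theorem hv : wT vw ^ 5 = 1 := by
  rw [← wT_pow]
  exact wT_one (by decide +kernel)

theorem hu1 : wT uw ≠ 1 :=
  wT_ne (by decide +kernel) 1 (.inr ⟨3, by decide⟩) (by decide +kernel)

theorem conjChk : allB (fun m => eqB 52 CY CY 6 6 (invW (TS.getD m []) ++ (uw ++ TS.getD m []))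
    (powW vw (pr (Fin.ofNat 6 m)).2 ++ powW uw (pr (Fin.ofNat 6 m)).1)) 6 = true := by
  decide +kernel

theorem hc (m : Fin 6) : ∃ t, t * wT uw * t⁻¹ = wT uw ^ (pr m).1 * wT vw ^ (pr m).2 := by
  refine ⟨wT (TS.getD m []), ?_⟩
  have h : wT (invW (TS.getD m []) ++ (uw ++ TS.getD m [])) =
      wT (powW vw (pr (Fin.ofNat 6 m)).2 ++ powW uw (pr (Fin.ofNat 6 m)).1) :=
    wT_eq ((allB_iff _ _).1 conjChk m m.2)
  have e : Fin.ofNat 6 (m : ℕ) = m := by simp
  rw [e, wT_append, wT_append, wT_append, wT_inv, wT_pow, wT_pow] at h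
  rw [← h, mul_assoc]

/-- The Tits group has no faithful 2-transitive action on a finite set with more than two points. -/
theorem no_two_trans {Ω : Type*} [Fintype Ω] [MulAction TT Ω] [FaithfulSMul TT Ω] (h3 : 3 ≤ Fintype.card Ω) :
    ¬ MulAction.IsMultiplyPretransitive TT Ω 2 := by
  intro h2
  have := inst_finite
  exact main_abs hcard h3 h2 hg13 hg1 hy hy3 hy1 hzy QQ hQ ha hb hz hcent huv hu hv hu1 hc

end Cfsg.Agent.Lib.Compute.TitsTT
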